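/-
Divided powers of a representation of `SL₂(F)` in the defining characteristic.
-/
import Cfsg.Agent.KSG.SL2Wt

set_option autoImplicit false

namespace CL.DivG
open Module Function Finset CL.SL2Wt
open scoped MatrixGroups

variable {F K : Type*} [Field F] [Fintype F] [Field K] (f : F →+* K) {W : Type*} [AddCommGroup W] [Module K W]
  (ρ : SL(2, F) →* End K W)

/-- divided powers -/
noncomputable def X (m : ℕ) : End K W :=
  if m = 0 then 1 else -∑ a : F, f a ^ (Fintype.card F - 1 - m) • ρ (up a)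

/-- the Weyl element -/
def w : SL(2, F) := mk 0 (-1) 1 0 (by simp)

/-- opposite divided powers -/
noncomputable def Y (m : ℕ) : End K W := ρ w * X f ρ m * ρ w⁻¹

theorem q1 : Fintype.card F = Fintype.card F - 1 + 1 := (Nat.sub_add_cancel Fintype.card_pos).symm

include f in
theorem q0 : (Fintype.card F : K) = 0 := by rw [← map_natCast f, FiniteField.cast_card_eq_zero, map_zero]

theorem pq (a : F) : f a ^ Fintype.card F = f a := by rw [← map_pow, FiniteField.pow_card]

open Classical in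
theorem pq1 (a : F) : f a ^ (Fintype.card F - 1) = 1 - if a = 0 then 1 else 0 := by
  split_ifs with h
  · rw [h, map_zero, zero_pow (Nat.sub_ne_zero_of_lt Fintype.one_lt_card), sub_self]
  · rw [← map_pow, FiniteField.pow_card_sub_one_eq_one a h, map_one, sub_zero]

open Classical in
theorem geo (a b : F) : ∑ m ∈ range (Fintype.card F), f b ^ m * f a ^ (Fintype.card F - 1 - m) =
    1 - if a = b then 1 else 0 := by
  split_ifs with h
  · rw [h, Finset.sum_congr rfl (g := fun _ => f b ^ (Fintype.card F - 1)) fun m hm => by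
      rw [← pow_add]; congr 1; have := Finset.mem_range.1 hm; omega]
    simp only [Finset.sum_const, Finset.card_range, nsmul_eq_mul, q0 f, zero_mul, sub_self]
  · have h0 : f b - f a ≠ 0 := sub_ne_zero.2 fun e => h (f.injective e).symm
    have := geom_sum₂_mul (f b) (f a) (Fintype.card F)
    rw [pq, pq] at this
    rw [sub_zero]
    exact mul_right_cancel₀ h0 (by rw [one_mul]; exact this)

theorem X0 : X f ρ 0 = 1 := if_pos rfl

theorem Y0 : Y f ρ 0 = 1 := by rw [Y, X0, mul_one, ← map_mul, mul_inv_cancel, map_one]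

theorem up_eq (b : F) : ρ (up b) = ∑ m ∈ range (Fintype.card F), f b ^ m • X f ρ m := by
  classical
  have h1 : ∑ m ∈ range (Fintype.card F), f b ^ m • ∑ a : F, f a ^ (Fintype.card F - 1 - m) • ρ (up a) =
      ∑ a : F, ρ (up a) - ρ (up b) := by
    simp only [Finset.smul_sum, smul_smul]
    rw [Finset.sum_comm]
    simp only [← Finset.sum_smul, geo, sub_smul, one_smul, ite_smul, zero_smul, Finset.sum_sub_distrib,
      Finset.sum_ite_eq', Finset.mem_univ, if_true]
  have h2 : ∑ a : F, f a ^ (Fintype.card F - 1) • ρ (up a) = ∑ a : F, ρ (up a) - 1 := by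
    simp only [pq1, sub_smul, one_smul, ite_smul, zero_smul, Finset.sum_sub_distrib,
      Finset.sum_ite_eq', Finset.mem_univ, if_true, up_zero, map_one]
  rw [congrArg range q1, Finset.sum_range_succ', pow_zero, one_smul, Nat.sub_zero, h2] at h1
  rw [congrArg range q1, Finset.sum_range_succ', pow_zero, one_smul, X0]
  simp only [X, Nat.succ_ne_zero, if_false, smul_neg, Finset.sum_neg_distrib]
  rw [← sub_right_inj (a := ∑ a : F, ρ (up a)), ← h1]
  abel

/-- uniqueness of the coefficients -/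
theorem coeff_zero {M : Type*} [AddCommGroup M] [Module K M] (x : ℕ → M)
    (h : ∀ b : F, ∑ m ∈ range (Fintype.card F), f b ^ m • x m = 0) : ∀ m < Fintype.card F, x m = 0 := by
  intro m hm
  rw [← Module.forall_dual_apply_eq_zero_iff K]
  intro φ
  let e := (Fintype.equivFin F).symm
  have := Matrix.eq_zero_of_forall_index_sum_pow_mul_eq_zero (f := fun j => f (e j))
    (v := fun i : Fin (Fintype.card F) => φ (x i)) (f.injective.comp e.injective) fun j => by
      have h1 := congrArg φ (h (e j))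
      rw [map_sum, map_zero, Finset.sum_range] at h1
      simpa only [map_smul, smul_eq_mul] using h1
  exact congrFun this ⟨m, hm⟩

theorem X_mul {m n : ℕ} (hm : m < Fintype.card F) (hn : n < Fintype.card F) : X f ρ m * X f ρ n =
    if m + n < Fintype.card F then (((m + n).choose m : ℕ) : K) • X f ρ (m + n) else 0 := by
  have h1 : ∀ a b : F, ∑ i ∈ range (Fintype.card F), f a ^ i • ∑ j ∈ range (Fintype.card F), f b ^ j •
      (X f ρ i * X f ρ j - if i + j < Fintype.card F then (((i + j).choose i : ℕ) : K) • X f ρ (i + j) else 0) = 0 := by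
    intro a b
    simp only [smul_sub, Finset.sum_sub_distrib]
    rw [sub_eq_zero]
    have e1 : ∑ i ∈ range (Fintype.card F), f a ^ i • ∑ j ∈ range (Fintype.card F), f b ^ j • (X f ρ i * X f ρ j) =
        ρ (up (a + b)) := by
      rw [up_add, map_mul, up_eq f ρ a, up_eq f ρ b, Finset.sum_mul]
      refine Finset.sum_congr rfl fun i _ => ?_
      rw [smul_mul_assoc, Finset.mul_sum]
      simp only [mul_smul_comm]
    rw [e1, up_eq f ρ (a + b), map_add]
    simp only [add_pow, Finset.sum_smul]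
    have e2 := Finset.sum_range_diag_flip (Fintype.card F)
      (fun i j => (f a ^ i * f b ^ j * (((i + j).choose i : ℕ) : K)) • X f ρ (i + j))
    rw [Finset.sum_congr rfl fun k _ => Finset.sum_congr rfl fun i hi => by
      rw [Nat.add_sub_cancel' (Nat.lt_succ_iff.1 (Finset.mem_range.1 hi))]] at e2
    rw [e2]
    refine Finset.sum_congr rfl fun i hi => ?_
    rw [Finset.smul_sum]
    simp only [smul_ite, smul_zero, smul_smul]
    rw [← Finset.sum_filter]
    refine Finset.sum_congr (by ext j; simp only [Finset.mem_range, Finset.mem_filter]; omega) fun j _ => ?_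
    rw [mul_assoc]
  exact sub_eq_zero.1 (coeff_zero f _ (fun b => coeff_zero f _ (fun a => h1 a b) m hm) n hn)

theorem X_comm {m n : ℕ} (hm : m < Fintype.card F) (hn : n < Fintype.card F) : Commute (X f ρ m) (X f ρ n) := by
  rw [Commute, SemiconjBy, X_mul f ρ hm hn, X_mul f ρ hn hm, add_comm n, Nat.choose_symm_add]

theorem dg_X (c : Fˣ) {m : ℕ} (hm : m < Fintype.card F) :
    ρ (dg c⁻¹) * X f ρ m = f c ^ (2 * m) • (X f ρ m * ρ (dg c⁻¹)) := by
  have h1 : ∀ a : F, ∑ i ∈ range (Fintype.card F), f a ^ i •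
      (ρ (dg c⁻¹) * X f ρ i - f c ^ (2 * i) • (X f ρ i * ρ (dg c⁻¹))) = 0 := by
    intro a
    have e : dg c⁻¹ * up a = up (c * c * a : F) * dg c⁻¹ := ext4 (by simp [up, dg, mul_ap]; field_simp)
    have e' := congrArg ρ e
    rw [map_mul, map_mul, up_eq f ρ, up_eq f ρ, Finset.mul_sum, Finset.sum_mul] at e'
    simp only [smul_sub, Finset.sum_sub_distrib]
    rw [sub_eq_zero]
    simp only [mul_smul_comm, smul_mul_assoc] at e'
    rw [e']
    refine Finset.sum_congr rfl fun i _ => ?_
    rw [smul_smul]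
    congr 1
    simp only [map_mul]
    ring
  exact sub_eq_zero.1 (coeff_zero f _ h1 m hm)

theorem X_wt (c : Fˣ) {m : ℕ} (hm : m < Fintype.card F) {μ : K} {v : W} (hv : ρ (dg c⁻¹) v = μ • v) :
    ρ (dg c⁻¹) (X f ρ m v) = (μ * f c ^ (2 * m)) • X f ρ m v := by
  have h2 := LinearMap.congr_fun (dg_X f ρ c hm) v
  rwa [End.mul_apply, LinearMap.smul_apply, End.mul_apply, hv, map_smul, smul_smul, mul_comm] at h2

omit [Fintype F] in
theorem dg_inv (c : Fˣ) : (dg c)⁻¹ = dg c⁻¹ := inv_eq_of_mul_eq_one_right (ext4 (by simp [dg, mul_ap]))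

omit [Fintype F] in
theorem dg_w (c : Fˣ) : dg c * w = w * (dg c)⁻¹ := by rw [dg_inv]; exact ext4 (by simp [dg, w, mul_ap])

omit [Fintype F] in
theorem inv_wt {g : SL(2, F)} {μ : K} {v : W} (hv : ρ g v = μ • v) : ρ g⁻¹ v = μ⁻¹ • v := by
  have e : μ • ρ g⁻¹ v = v := by rw [← map_smul, ← hv, ← End.mul_apply, ← map_mul, inv_mul_cancel, map_one, End.one_apply]
  by_cases h : μ = 0
  · rw [h, zero_smul] at e
    rw [← e, map_zero, smul_zero]
  · conv_rhs => rw [← e, smul_smul, inv_mul_cancel₀ h, one_smul]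

omit [Fintype F] in
theorem w_wt (c : Fˣ) {μ : K} {v : W} (hv : ρ (dg c) v = μ • v) : ρ (dg c) (ρ w v) = μ⁻¹ • ρ w v := by
  rw [← End.mul_apply, ← map_mul, dg_w, map_mul, End.mul_apply, inv_wt ρ hv, map_smul]

omit [Fintype F] in
theorem wi_wt (c : Fˣ) {μ : K} {v : W} (hv : ρ (dg c) v = μ • v) : ρ (dg c) (ρ w⁻¹ v) = μ⁻¹ • ρ w⁻¹ v := by
  have e : dg c * w⁻¹ = w⁻¹ * (dg c)⁻¹ := by
    have := dg_w c⁻¹
    rw [← dg_inv, inv_inv] at this
    rw [mul_inv_eq_iff_eq_mul, mul_assoc, this, inv_mul_cancel_left]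
  rw [← End.mul_apply, ← map_mul, e, map_mul, End.mul_apply, inv_wt ρ hv, map_smul]

theorem Y_wt (c : Fˣ) {m : ℕ} (hm : m < Fintype.card F) {μ : K} {v : W} (hv : ρ (dg c⁻¹) v = μ • v) :
    ρ (dg c⁻¹) (Y f ρ m v) = (μ * (f c ^ (2 * m))⁻¹) • Y f ρ m v := by
  have := w_wt ρ _ (X_wt f ρ c hm (wi_wt ρ _ hv))
  rwa [mul_inv, inv_inv] at this

omit [Fintype F] in
/-- Bruhat generation -/
theorem gen {P : SL(2, F) → Prop} (hm : ∀ a b, P a → P b → P (a * b)) (hu : ∀ a, P (up a)) (ht : ∀ a, P (dg a))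
    (hw : P w) (g : SL(2, F)) : P g := by
  have h3 : ∀ g : SL(2, F), g 1 0 = 0 → P g := fun g hg => by
    have hd := g.det_coe
    rw [Matrix.det_fin_two, hg, mul_zero, sub_zero] at hd
    have h0 : g 1 1 ≠ 0 := right_ne_zero_of_mul_eq_one hd
    have e : g = up (g 0 1 * g 0 0) * dg (Units.mk0 _ h0) := ext4 (by
      simp only [mul_ap, up, dg, mk00, mk01, mk10, mk11, Units.val_mk0, hg]
      refine ⟨?_, ?_, by simp, by simp⟩
      · rw [eq_inv_of_mul_eq_one_left hd]; simp
      · linear_combination (- g 0 1) * hd)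
    rw [e]
    exact hm _ _ (hu _) (ht _)
  by_cases hg : g 1 0 = 0
  · exact h3 g hg
  · have e : g = up (g 0 0 / g 1 0) * (w * (w⁻¹ * (up (-(g 0 0 / g 1 0)) * g))) := by
      rw [mul_inv_cancel_left, ← mul_assoc, ← up_add, add_neg_cancel, up_zero, one_mul]
    have e' : (w : SL(2, F))⁻¹ = mk 0 1 (-1) 0 (by simp) := inv_eq_of_mul_eq_one_right (ext4 (by simp [w, mul_ap]))
    rw [e]
    refine hm _ _ (hu _) (hm _ _ hw (h3 _ ?_))
    simp only [e', mul_ap, up, mk00, mk01, mk10, mk11]
    field_simp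
    ring

end CL.DivG
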