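/-
`E₈(3)`, `L₂(81)`: stabilisers in `SL₂(81)` of a vector of the adjoint module (coordinates).
-/
import Mathlib

set_option autoImplicit false

namespace CL.E81.Fix6
variable {K : Type*} [Field K]

/-- `x_α(c)` on `μ h + a e + a' e'` -/
def X (c : K) (s : K × K × K) : K × K × K := (s.1 + c * s.2.2, s.2.1 - 2 * c * s.1 - c ^ 2 * s.2.2, s.2.2)
/-- `x_{-α}(c)` -/
def Y (c : K) (s : K × K × K) : K × K × K := (s.1 - c * s.2.1, s.2.1, s.2.2 + 2 * c * s.1 - c ^ 2 * s.2.1)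
/-- a product of four root elements -/
def GG (c : Fin 4 → K) (s : K × K × K) : K × K × K := X (c 0) (Y (c 1) (X (c 2) (Y (c 3) s)))
/-- the symmetry -/
def sw (s : K × K × K) : K × K × K := (-s.1, s.2.2, s.2.1)

theorem sX (c : K) (s : K × K × K) : Y c (sw s) = sw (X c s) := by
  simp only [X, Y, sw, Prod.mk.injEq]; refine ⟨by ring, trivial, by ring⟩
theorem sY (c : K) (s : K × K × K) : X c (sw s) = sw (Y c s) := by
  simp only [X, Y, sw, Prod.mk.injEq]; refine ⟨by ring, by ring, trivial⟩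
theorem Y0 (s : K × K × K) : Y 0 s = s := by simp [Y]

theorem GG_smul (c : Fin 4 → K) (k : K) (T : K × K × K) : GG c (k • T) = k • GG c T := by
  simp only [GG, X, Y, Prod.smul_mk, Prod.smul_fst, Prod.smul_snd, smul_eq_mul, Prod.mk.injEq]
  exact ⟨by ring, by ring, by ring⟩

variable (h2 : (2 : K) ≠ 0) {φ : K →+* K} {ε e ω : K} (hε : ε ^ 2 = 1) (e0 : e ≠ 0) (he : ε * φ e = e)
  (hω : ω ^ 4 = -1) (fω : φ ω = ω)
include h2 hε e0 he hω fω

theorem par1 {l a : K} (hl : ε * φ l = l) (ha : φ a = a) : ∃ c b d : K, ε * φ c = c ∧ ε * φ b = b ∧ ε * φ d = d ∧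
    X c (Y b (X d (l, a, 1))) = (l, a, 1) ∧ X c (Y b (X d (X c (Y b (X d (0, 1, 0)))))) ≠ (0, 1, 0) := by
  obtain ⟨u, u0, hu, n1⟩ : ∃ u, u ≠ 0 ∧ ε * φ u = u ∧ ((l ^ 2 + a) * u ^ 2) ^ 2 ≠ 1 := by
    by_cases h : ((l ^ 2 + a) * e ^ 2) ^ 2 = 1
    · refine ⟨ω * e, mul_ne_zero (by rintro rfl; simp at hω) e0, by rw [map_mul, fω]; linear_combination ω * he,
        fun k => h2 ?_⟩
      linear_combination hω - k + ω ^ 4 * h
    · exact ⟨e, e0, he, h⟩
  have hl' : φ l = ε * l := by linear_combination ε * hl - φ l * hε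
  have hu' : φ u = ε * u := by linear_combination ε * hu - φ u * hε
  set z := (l ^ 2 + a) * u ^ 2 with hz
  have fz : φ z = z := by
    rw [hz, map_mul, map_add, map_pow, map_pow, hl', hu', ha]
    linear_combination ((ε ^ 2 + 1) * l ^ 2 * u ^ 2 + a * u ^ 2) * hε
  have z1 : 1 - z ≠ 0 := fun k => n1 (by linear_combination -(1 + z) * k)
  have z2 : 1 + z ≠ 0 := fun k => n1 (by linear_combination -(1 - z) * k)
  obtain ⟨p, b, p0, b0, fp, fb, det⟩ : ∃ p b : K, p ≠ 0 ∧ b ≠ 0 ∧ φ p = p ∧ φ b = ε * b ∧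
      p ^ 2 - b ^ 2 * (l ^ 2 + a) = 1 :=
    ⟨(1 + z) / (1 - z), 2 * u / (1 - z), div_ne_zero z2 z1, div_ne_zero (mul_ne_zero h2 u0) z1, by simp [fz],
      by simp only [map_div₀, map_mul, map_sub, map_one, map_ofNat, fz, hu']; ring,
      by field_simp; linear_combination 4 * hz⟩
  have ε0 : ε ≠ 0 := by rintro rfl; simp at hε
  have ea : a = (p ^ 2 - 1) / b ^ 2 - l ^ 2 := by field_simp; linear_combination -det
  refine ⟨(p + b * l - 1) / b, b, (p - b * l - 1) / b, ?_, by rw [fb]; linear_combination b * hε, ?_, ?_, fun k => ?_⟩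
  · simp only [map_div₀, map_mul, map_sub, map_add, map_one, fp, fb, hl']; field_simp; linear_combination b * l * hε
  · simp only [map_div₀, map_mul, map_sub, map_one, fp, fb, hl']; field_simp; linear_combination -b * l * hε
  · rw [ea]; simp only [X, Y, Prod.mk.injEq]
    exact ⟨by field_simp; ring, by field_simp; ring, by field_simp; ring⟩
  · have : ∀ c b d : K, (X c (Y b (X d (X c (Y b (X d (0, 1, 0))))))).2.2 = -(b * (2 + b * c + b * d)) ^ 2 :=
      fun c b d => by simp only [X, Y]; ring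
    have k' := (this _ _ _).symm.trans (congrArg (·.2.2) k)
    rw [mul_div_cancel₀ _ b0, mul_div_cancel₀ _ b0] at k'
    exact pow_ne_zero 2 (mul_ne_zero b0 (mul_ne_zero h2 p0)) (by linear_combination -k')

theorem par {S : Set (K × K × K)}
    (pr : ∀ T ∈ S, ∀ U ∈ S, T.1 * U.2.1 = U.1 * T.2.1 ∧ T.1 * U.2.2 = U.1 * T.2.2 ∧ T.2.1 * U.2.2 = T.2.2 * U.2.1)
    (fr : ∀ T ∈ S, (φ T.1, ε * φ T.2.1, ε * φ T.2.2) ∈ S) : ∃ c : Fin 4 → K, (∀ i, ε * φ (c i) = c i) ∧
      (∀ T ∈ S, GG c T = T) ∧ ∃ T, GG c (GG c T) ≠ T := by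
  have ε0 : ε ≠ 0 := by rintro rfl; simp at hε
  have q : ∀ x y : K, y ≠ 0 → x * (ε * φ y) = φ x * y → ε * φ (x / y) = x / y := fun x y y0 h => by
    have : φ y ≠ 0 := (map_ne_zero φ).2 y0
    rw [map_div₀]; field_simp; linear_combination -ε * h + x * φ y * hε
  by_cases h1 : ∃ T ∈ S, T.2.2 ≠ 0
  · obtain ⟨⟨l, a, b⟩, hT, b0⟩ := h1
    obtain ⟨-, p2, p3⟩ := pr _ hT _ (fr _ hT)
    have : φ b ≠ 0 := (map_ne_zero φ).2 b0
    obtain ⟨c, d, f, hc, hd, hf, fx, nt⟩ := par1 h2 hε e0 he hω fω (q l b b0 p2) (a := a / b) (by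
      rw [map_div₀]; field_simp; exact mul_left_cancel₀ ε0 (by linear_combination -p3))
    refine ⟨![c, d, f, 0], fun i => by fin_cases i <;> simp [hc, hd, hf], fun U hU => ?_, (0, 1, 0), by
      simpa [GG, Y0] using nt⟩
    obtain ⟨-, p2, p3⟩ := pr _ hT _ hU
    have : U = U.2.2 • (l / b, a / b, 1) := Prod.ext (by
      simp only [Prod.smul_fst, smul_eq_mul]; field_simp; linear_combination -p2) (Prod.ext (by
      simp only [Prod.smul_fst, Prod.smul_snd, smul_eq_mul]; field_simp; linear_combination -p3) (by simp))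
    rw [this, GG_smul]
    exact congrArg _ (by simpa [GG, Y0] using fx)
  push Not at h1
  by_cases h0 : ∃ T ∈ S, T.2.1 ≠ 0
  · obtain ⟨⟨l, b, a⟩, hT, b0⟩ := h0
    obtain ⟨p2, -⟩ := pr _ hT _ (fr _ hT)
    obtain ⟨c, d, f, hc, hd, hf, fx, nt⟩ := par1 h2 hε e0 he hω fω (l := -(l / b)) (a := 0) (by
      rw [map_neg, mul_neg, q l b b0 p2]) (map_zero φ)
    have g : ∀ T, GG ![0, c, d, f] (sw T) = sw (X c (Y d (X f T))) := fun T => by simp [GG, Y0, sX, sY]
    refine ⟨![0, c, d, f], fun i => by fin_cases i <;> simp [hc, hd, hf], fun U hU => ?_, sw (0, 1, 0), fun k => nt ?_⟩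
    · obtain ⟨p2, -⟩ := pr _ hT _ hU
      have : U = U.2.1 • sw (-(l / b), 0, 1) := Prod.ext (by
        simp only [sw, Prod.smul_fst, smul_eq_mul]; field_simp; linear_combination -p2) (Prod.ext (by simp [sw])
        (by simp [sw, h1 U hU]))
      rw [this, GG_smul, g, fx]
    · rw [g, g] at k
      simpa [sw] using congrArg sw k
  push Not at h0
  have w0 : ω ≠ 0 := by rintro rfl; simp at hω
  have fe : φ e = ε * e := by linear_combination ε * he - φ e * hε
  have g : ∀ T : K × K × K, GG ![(ω - 1) / e, e, (ω⁻¹ - 1) / e, -(ω * e)] T = (T.1, ω ^ 2 * T.2.1, T.2.2 / ω ^ 2) :=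
    fun T => by
      simp only [GG, X, Y, Matrix.cons_val, Prod.mk.injEq]
      exact ⟨by field_simp; ring, by field_simp; ring, by field_simp; ring⟩
  refine ⟨![(ω - 1) / e, e, (ω⁻¹ - 1) / e, -(ω * e)], fun i => ?_, fun U hU => ?_, (0, 1, 0), fun k => h2 ?_⟩
  · fin_cases i <;> simp [fω, fe] <;> first | (field_simp; done) | linear_combination e * hε | linear_combination ω * e * hε
  · rw [g]; exact Prod.ext rfl (Prod.ext (by simp [h0 U hU]) (by simp [h1 U hU]))
  · rw [g, g] at k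
    have := congrArg (·.2.1) k
    simp only at this
    linear_combination hω - this

end CL.E81.Fix6
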