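/-
`E₈(3)`, `L₂(81)`: the elements `κ + x` of `GL₂(81)` on the adjoint module (coordinates).
-/
import Cfsg.Agent.KSG.E81.Fix60

set_option autoImplicit false

namespace CL.E81.Fix6
variable {K : Type*} [Field K]

/-- the bracket of triples -/
def ad (S T : K × K × K) : K × K × K :=
  (S.2.1 * T.2.2 - S.2.2 * T.2.1, 2 * (S.1 * T.2.1 - T.1 * S.2.1), 2 * (T.1 * S.2.2 - S.1 * T.2.2))
/-- conjugation by a matrix -/
def Ad (P Q R S : K) (T : K × K × K) : K × K × K := (T.1 * (P * S + Q * R) + Q * S * T.2.2 - P * R * T.2.1,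
  P ^ 2 * T.2.1 - 2 * P * Q * T.1 - Q ^ 2 * T.2.2, 2 * R * S * T.1 + S ^ 2 * T.2.2 - R ^ 2 * T.2.1)
/-- twisted Frobenius -/
def tw3 (φ : K →+* K) (ε : K) (T : K × K × K) : K × K × K := (φ T.1, ε * φ T.2.1, ε * φ T.2.2)
/-- determinant of `κ + x` -/
def uu (κ : K) (S : K × K × K) : K := κ ^ 2 - (S.1 ^ 2 + S.2.1 * S.2.2)
/-- the torus -/
def tq (u : K) (T : K × K × K) : K × K × K := (T.1, u * T.2.1, u⁻¹ * T.2.2)
open Classical in
/-- the last parameter -/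
noncomputable def c3 (e : K) (S : K × K × K) : K := if S.2.2 = 0 then e else 0
/-- the parameters of `diag(u,1)⁻¹ (κ + x)` -/
noncomputable def cf (κ e : K) (S : K × K × K) : Fin 4 → K :=
  ![((κ + S.1) / uu κ S - S.2.1 / uu κ S * c3 e S - 1) / (S.2.2 - (κ - S.1) * c3 e S), S.2.2 - (κ - S.1) * c3 e S,
    (κ - S.1 - 1) / (S.2.2 - (κ - S.1) * c3 e S), c3 e S]

theorem GG_eq (c : Fin 4 → K) (T : K × K × K) : GG c T = Ad (1 + c 0 * c 1 + (c 0 + c 2 + c 0 * c 1 * c 2) * c 3)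
    (c 0 + c 2 + c 0 * c 1 * c 2) (c 1 + (1 + c 1 * c 2) * c 3) (1 + c 1 * c 2) T := by
  simp only [GG, X, Y, Ad, Prod.mk.injEq]; exact ⟨by ring, by ring, by ring⟩

theorem uu_tw {φ : K →+* K} {ε κ : K} (hε : ε ^ 2 = 1) (hκ : φ κ = κ) (S : K × K × K) :
    uu κ (tw3 φ ε S) = φ (uu κ S) := by
  simp only [uu, tw3, map_sub, map_add, map_mul, map_pow, hκ]; linear_combination -φ S.2.1 * φ S.2.2 * hε

theorem cf_tw {φ : K →+* K} {ε κ : K} (hε : ε ^ 2 = 1) (hκ : φ κ = κ) (e : K) (S : K × K × K) :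
    cf κ (ε * φ e) (tw3 φ ε S) = fun i => ε * φ (cf κ e S i) := by
  have ε0 : ε ≠ 0 := by rintro rfl; simp at hε
  have h : c3 (ε * φ e) (tw3 φ ε S) = ε * φ (c3 e S) := by
    by_cases k : S.2.2 = 0 <;> simp [c3, tw3, k, ε0]
  funext i
  simp only [cf, h, uu_tw hε hκ]
  have k : ε * φ S.2.2 - (κ - φ S.1) * (ε * φ (c3 e S)) = ε * (φ S.2.2 - (κ - φ S.1) * φ (c3 e S)) := by ring
  have d : ∀ x y : K, x / (ε * y) = ε * (x / y) := fun x y => by
    rw [mul_comm ε y, ← div_div, div_eq_iff ε0]; linear_combination -(x / y) * hε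
  have k' : ε * φ S.2.1 / φ (uu κ S) * (ε * φ (c3 e S)) = φ S.2.1 / φ (uu κ S) * φ (c3 e S) := by
    linear_combination φ S.2.1 / φ (uu κ S) * φ (c3 e S) * hε
  fin_cases i <;> simp [tw3, hκ, k, k', d]

theorem form (h3 : (3 : K) = 0) {κ e : K} (e0 : e ≠ 0) {S : K × K × K} (u0 : uu κ S ≠ 0) (T : K × K × K) :
    tq (uu κ S) (GG (cf κ e S) T) = T + (uu κ S)⁻¹ • ad S (κ • T - ad S T) := by
  have R0 : S.2.2 - (κ - S.1) * c3 e S ≠ 0 := by
    by_cases k : S.2.2 = 0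
    · simp only [c3, k, if_true, zero_sub, neg_ne_zero]
      exact mul_ne_zero (fun h => u0 (by rw [uu, k]; linear_combination (κ + S.1) * h)) e0
    · simp [c3, k]
  have hu : uu κ S = κ ^ 2 - (S.1 ^ 2 + S.2.1 * S.2.2) := rfl
  have g : GG (cf κ e S) T = Ad ((κ + S.1) / uu κ S) (S.2.1 / uu κ S) S.2.2 (κ - S.1) T := by
    have r0 : cf κ e S 0 * cf κ e S 1 = (κ + S.1) / uu κ S - S.2.1 / uu κ S * cf κ e S 3 - 1 := div_mul_cancel₀ _ R0
    have r1 : cf κ e S 1 = S.2.2 - (κ - S.1) * cf κ e S 3 := rfl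
    have r2 : cf κ e S 1 * cf κ e S 2 = κ - S.1 - 1 := mul_div_cancel₀ _ R0
    have det : (κ + S.1) / uu κ S * (κ - S.1) - S.2.1 / uu κ S * S.2.2 = 1 := by field_simp; linear_combination -hu
    have q : cf κ e S 0 + cf κ e S 2 + cf κ e S 0 * cf κ e S 1 * cf κ e S 2 = S.2.1 / uu κ S :=
      mul_left_cancel₀ (a := cf κ e S 1) R0 (by
        linear_combination (1 + cf κ e S 1 * cf κ e S 2) * r0 + ((κ + S.1) / uu κ S - S.2.1 / uu κ S * cf κ e S 3) * r2 +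
          det - S.2.1 / uu κ S * r1)
    rw [GG_eq, q, r0, r2, r1]
    congr 1 <;> ring
  have e : Ad (κ + S.1) S.2.1 S.2.2 (κ - S.1) T = uu κ S • T + ad S (κ • T - ad S T) +
      (3 : K) • ((S.1 ^ 2 + S.2.1 * S.2.2) • T + Ad S.1 S.2.1 S.2.2 (-S.1) T) := by
    ext <;> simp [Ad, ad, uu] <;> ring
  rw [h3, zero_smul, add_zero] at e
  have e' : tq (uu κ S) (Ad ((κ + S.1) / uu κ S) (S.2.1 / uu κ S) S.2.2 (κ - S.1) T) =
      (uu κ S)⁻¹ • Ad (κ + S.1) S.2.1 S.2.2 (κ - S.1) T := by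
    ext <;> simp [Ad, tq] <;> field_simp
  rw [g, e', e, smul_add, inv_smul_smul₀ u0]

theorem cube (h3 : (3 : K) = 0) (κ : K) (S T : K × K × K) :
    κ ^ 2 • ad S T - ad S (ad S (ad S T)) = uu κ S • ad S T := by
  have : κ ^ 2 • ad S T - ad S (ad S (ad S T)) = uu κ S • ad S T - (3 : K) • (S.1 ^ 2 + S.2.1 * S.2.2) • ad S T := by
    ext <;> simp [ad, uu] <;> ring
  rw [this, h3, zero_smul, sub_zero]

theorem ad_smul (k : K) (S T : K × K × K) : ad S (k • T) = k • ad S T := by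
  ext <;> simp [ad] <;> ring

theorem nontriv (h2 : (2 : K) ≠ 0) (κ : K) {S : K × K × K} (h : ∀ T, ad S (κ • T - ad S T) = 0) : S = 0 := by
  have a := h (0, 1, 0)
  have b := h (0, 0, 1)
  simp only [ad, Prod.smul_mk, Prod.mk_sub_mk, smul_eq_mul, Prod.ext_iff, Prod.fst_zero, Prod.snd_zero] at a b
  have k1 : S.2.2 = 0 := pow_eq_zero_iff two_ne_zero |>.1 (mul_left_cancel₀ h2 (by linear_combination a.2.2))
  have k2 : S.2.1 = 0 := pow_eq_zero_iff two_ne_zero |>.1 (mul_left_cancel₀ h2 (by linear_combination b.2.1))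
  have k3 : S.1 = 0 := pow_eq_zero_iff two_ne_zero |>.1 (mul_left_cancel₀ (pow_ne_zero 3 h2) (by
    linear_combination -a.2.1 - b.2.2 - 4 * S.2.1 * k1))
  exact Prod.ext k3 (Prod.ext k2 k1)

end CL.E81.Fix6
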