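/-
`E₈(3)`, `L₂(81)`: a simple submodule of another type.
-/
import Cfsg.Agent.KSG.E81.Perp

set_option autoImplicit false
set_option backward.isDefEq.respectTransparency false

namespace CL.E81.LatB
open Module Function Finset CL.SL2Wt CL.Chev CL.AltE Cfsg.Lie
open CL.E82 (R8 val ww)
open CL.E83 (K3 G3)
open Matrix hiding zpow_add zpow_mul zpow_sub one_zpow
open scoped MatrixGroups

variable {F : Type*} [Field F] [Fintype F] (D : Dt F) (θ : SL(2, F) →* G3)

theorem exists_other (L : List ℕ) (hL : ∀ r ∈ L, (RR D (rh θ) ⊤).count r ≤ 1) {k : ℕ} (hk : ∀ r ∈ L, cw 80 r k = 0)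
    (h0 : Wt D (rh θ) k ≠ ⊥) : ∃ N r, Sm (rh θ) N ∧ RR D (rh θ) N = {r} ∧ r ∉ L := by
  by_contra! h
  let J : Submodule K3 V3 := sSup {N | Sm (rh θ) N}
  let A : End K3 V3 := rh θ D.t - ((D.ζ : K3) ^ k) • (1 : End K3 V3)
  have hA : ∀ v, A v = rh θ D.t v - (D.ζ : K3) ^ k • v := fun _ => rfl
  have hJA : J ≤ LinearMap.range A := sSup_le fun N hN => by
    obtain ⟨r, -, -, -, hr⟩ := Sm.simp D (rh θ) hN
    refine le_of_wt D (rh θ) hN.1 fun j _ v hv hj => ?_
    have hj' := End.mem_eigenspace_iff.1 hj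
    by_cases e : (D.ζ : K3) ^ j = (D.ζ : K3) ^ k
    · have : v = 0 := wt_zero D (rh θ) hN.1 (k := k) (by rw [hr]; simpa using hk r (h N r hN hr)) hv
        (End.mem_eigenspace_iff.2 (e ▸ hj'))
      rw [this]; exact zero_mem _
    · refine ⟨((D.ζ : K3) ^ j - (D.ζ : K3) ^ k)⁻¹ • v, ?_⟩
      rw [map_smul, hA, hj', ← sub_smul, smul_smul, inv_mul_cancel₀ (sub_ne_zero.2 e), one_smul]
  have hJ : Inv (rh θ) J := fun g v hv => by
    have : J ≤ J.comap (rh θ g) := sSup_le fun N hN w hw => le_sSup (s := {N | Sm (rh θ) N}) hN (hN.1 g w hw)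
    exact this hv
  have hne : pp J ≠ ⊥ := fun e => by
    have h1 := finrank_pp J
    have h2 := finrank_pp ⊤
    rw [e, finrank_bot] at h1
    have hT : J = ⊤ := Submodule.eq_of_le_of_finrank_le le_top (by omega)
    have hs : Surjective A := LinearMap.range_eq_top.1 (top_le_iff.1 (hT ▸ hJA))
    have hi := LinearMap.injective_iff_surjective.2 hs
    refine h0 (eq_bot_iff.2 fun v hv => hi ?_)
    rw [hA, End.mem_eigenspace_iff.1 hv, sub_self, map_zero]
  obtain ⟨N, hNJ, hN⟩ := exists_sm (rh θ) (pp_inv θ hJ) hne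
  obtain ⟨r, -, -, -, hr⟩ := Sm.simp D (rh θ) hN
  have h1 : N ≤ pp N := fun v hv => mem_pp.2 fun u hu =>
    mem_pp.1 (hNJ hv) u (le_sSup (s := {N | Sm (rh θ) N}) hN hu)
  have h2 := Multiset.count_le_of_le r (RR_mono D (rh θ) hN.1 (pp_inv θ hN.1) h1)
  have h3 := hL r (h N r hN hr)
  rw [← RR_pp D θ hN.1, Multiset.count_add] at h3
  rw [hr, Multiset.count_singleton_self] at h2 h3
  omega

end CL.E81.LatB
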