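/-
`E₈(3)`, `L₂(81)`: the bracket of a weight vector with its opposite.
-/
import Cfsg.Agent.KSG.E81.Lie2

set_option autoImplicit false
set_option backward.isDefEq.respectTransparency false

namespace CL.E81.NegB
open Module Function Finset CL.SL2Wt CL.Chev CL.AltE Cfsg.Lie
open CL.E82 (R8 val ww)
open CL.E83 (K3 G3)
open Matrix hiding zpow_add zpow_mul zpow_sub one_zpow
open scoped MatrixGroups

/-- dual vectors -/
def tb : List (ℕ × List ℤ) := [(122, [0, 0, 0, 0, 0, 0, 0, 1]), (124, [0, 0, 0, 0, 0, 0, 1, 2]), (127, [0, 0, 0, 0, 0, 1, 2, 1]), (131, [0, 0, 0, 0, 1, 2, 1, 2]), (136, [0, 0, 1, 0, 0, 0, 0, 0]), (142, [0, 0, 2, 1, 2, 1, 2, 1]), (140, [0, 0, 1, 2, 0, 1, 2, 1]), (146, [0, 0, 2, 1, 0, 2, 1, 0]), (150, [0, 0, 0, 0, 0, 0, 1, 2]), (153, [0, 0, 0, 0, 0, 1, 2, 0]), (165, [0, 0, 0, 0, 1, 2, 0, 0]), (169, [0, 0, 0, 1, 2, 2, 1, 0]), (12, [0, 0, 2, 0,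 1, 0, 0, 2]), (16, [0, 0, 0, 0, 2, 0, 0, 0]), (203, [0, 0, 0, 2, 0, 1, 2, 0]), (212, [0, 0, 0, 2, 1, 2, 0, 0]), (215, [0, 0, 2, 2, 2, 0, 1, 0]), (219, [0, 0, 0, 2, 1, 0, 2, 2]), (8, [0, 0, 1, 0, 0, 0, 1, 0]), (183, [0, 0, 0, 0, 1, 0, 1, 0]), (192, [0, 0, 1, 2, 2, 0, 0, 0]), (196, [0, 0, 0, 1, 0, 0, 0, 1]), (197, [0, 0, 0, 1, 1, 1, 0, 0]), (205, [0, 0, 1, 2, 1, 2, 1, 2]), (134, [0, 0, 0, 0, 0, 0, 0, 1]), (139, [0, 0, 1, 2, 1, 2, 1, 0]), (145, [0, 0, 2, 1, 2, 1, 0, 2]), (149, [0, 0, 0, 0, 0, 1, 2, 0]), (152, [0, 0, 0, 0, 1, 2, 0, 0]), (164, [0, 0, 0, 1, 1, 1, 0, 0]), (9, [0, 2, 0, 0, 2, 2, 0, 2]), (193, [0, 1, 0, 2, 1, 1, 0, 1]), (198, [0, 1, 0, 2, 1, 2, 1, 2]), (200, [0, 2, 0, 1, 0, 2, 1, 2]), (206, [0, 0, 0, 2, 0, 2, 2, 0]), (207, [0, 2, 0, 0, 1, 2, 0, 1]), (0, [0, 1, 0, 0, 2, 1, 2, 0]), (151, [0, 2, 0, 0, 1, 2, 1, 1]), (154, [0, 1, 0, 0, 2, 1, 0, 2]),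 (156, [0, 1, 2, 0, 0, 1, 2, 0]), (166, [0, 0, 1, 0, 2, 1, 2, 0]), (170, [0, 0, 1, 0, 0, 2, 0, 0])]

/-- the dual vector of a root -/
def dd (r : R8) (i : Fin 8) : ℤ := ((tb.lookup r.val).getD []).getD i 0

theorem chk : ∀ k ∈ [2, 6, 18, 14, 5, 15, 7], ∀ r : R8, val (CT 3) r ≡ (k : ℕ) [ZMOD 40] → ∀ s : R8,
    val (CT 3) s ≡ (k : ℕ) [ZMOD 40] →
      (∑ i : Fin 8, dd r i * cor s i) ≡ (if s = r then 1 else 0) [ZMOD 3] := by
  decide +kernel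

theorem cart (r s : R8) (i : Fin 8) :
    br (ee r) (ee s) (Sum.inl i) = if s = ng r then ((cor r i : ℤ) : K3) else 0 := by
  by_cases h0 : s = ng r
  · rw [if_pos h0, h0, br_ee_ng]; rfl
  · rw [if_neg h0]
    rcases root_cases r s with h | ⟨u, h, -⟩ | h
    · exact absurd h h0
    · obtain ⟨ε, -, e⟩ := br_ee_add h
      rw [e, Pi.smul_apply, LA.ee_inl, smul_zero]
    · rw [br_ee_zero h]; rfl

theorem sum_ee {u : V3} (h : ∀ i, u (Sum.inl i) = 0) : u = ∑ r : R8, u (Sum.inr r) • ee r := by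
  conv_lhs => rw [eq_sum u]
  simp [h]

theorem cart' {u u2 : V3} (h2 : ∀ i, u (Sum.inl i) = 0) (h3 : ∀ i, u2 (Sum.inl i) = 0) (i : Fin 8) :
    br u u2 (Sum.inl i) = ∑ r : R8, u (Sum.inr r) * u2 (Sum.inr (ng r)) * ((cor r i : ℤ) : K3) := by
  conv_lhs => rw [sum_ee h2, sum_ee h3]
  simp only [map_sum, map_smul, LinearMap.sum_apply, LinearMap.smul_apply, Finset.sum_apply, Pi.smul_apply,
    smul_eq_mul, cart, Finset.mul_sum]
  rw [Finset.sum_comm]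
  refine Finset.sum_congr rfl fun r _ => ?_
  rw [Finset.sum_eq_single (ng r)]
  · rw [if_pos rfl]; ring
  · intro s _ hs
    rw [if_neg hs, mul_zero, mul_zero]
  · intro h
    exact absurd (Finset.mem_univ _) h

theorem br_ne {k : ℕ} (hk : k ∈ [2, 6, 18, 14, 5, 15, 7]) {u u2 : V3}
    (h1 : ∀ r, ¬ val (CT 3) r ≡ k [ZMOD 40] → u (Sum.inr r) = 0) (h2 : ∀ i, u (Sum.inl i) = 0)
    (h3 : ∀ i, u2 (Sum.inl i) = 0) (c : R8 → K3) (hc : ∀ r, c r ≠ 0)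
    (h4 : ∀ r, u2 (Sum.inr (ng r)) = c r * u (Sum.inr r)) (u0 : u ≠ 0) : br u u2 ≠ 0 := by
  intro h
  refine u0 (funext fun j => ?_)
  rcases j with i | r
  · exact h2 i
  by_cases hr : val (CT 3) r ≡ k [ZMOD 40]
  swap
  · exact h1 r hr
  have e : ∑ i : Fin 8, ((dd r i : ℤ) : K3) * br u u2 (Sum.inl i) = 0 := by
    rw [h]
    exact Finset.sum_eq_zero fun i _ => mul_zero _
  simp only [cart' h2 h3, Finset.mul_sum] at e
  rw [Finset.sum_comm] at e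
  have e2 : ∀ s : R8, ∑ i : Fin 8, ((dd r i : ℤ) : K3) *
      (u (Sum.inr s) * u2 (Sum.inr (ng s)) * ((cor s i : ℤ) : K3)) =
      if s = r then u (Sum.inr s) * u2 (Sum.inr (ng s)) else 0 := fun s => by
    by_cases hs : val (CT 3) s ≡ k [ZMOD 40]
    · obtain ⟨n, hn⟩ := (chk k hk r hr s hs).dvd
      have e3 : ∑ i : Fin 8, ((dd r i : ℤ) : K3) * ((cor s i : ℤ) : K3) = if s = r then 1 else 0 := by
        have := congrArg (Int.cast : ℤ → K3) hn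
        push_cast at this
        rw [three0, zero_mul, sub_eq_zero] at this
        exact this.symm
      have e4 : ∑ i : Fin 8, ((dd r i : ℤ) : K3) *
          (u (Sum.inr s) * u2 (Sum.inr (ng s)) * ((cor s i : ℤ) : K3)) =
          u (Sum.inr s) * u2 (Sum.inr (ng s)) * ∑ i : Fin 8, ((dd r i : ℤ) : K3) * ((cor s i : ℤ) : K3) := by
        rw [Finset.mul_sum]
        exact Finset.sum_congr rfl fun i _ => by ring
      rw [e4, e3]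
      split_ifs <;> simp
    · rw [h1 s hs]
      simp
  rw [Finset.sum_congr rfl fun s _ => e2 s, Finset.sum_ite_eq', if_pos (Finset.mem_univ _), h4] at e
  have := hc r
  have e5 : c r * u (Sum.inr r) ^ 2 = 0 := by linear_combination e
  exact pow_eq_zero_iff (two_ne_zero) |>.1 ((mul_eq_zero.1 e5).resolve_left this)

end CL.E81.NegB
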