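/-
`E₈(3)`, `L₂(81)`: Frobenius twists of submodules.
-/
import Cfsg.Agent.KSG.E81.RR
import Cfsg.Agent.KSG.E81.Lie0
import Cfsg.Agent.KSG.E81.TyA

set_option autoImplicit false
set_option backward.isDefEq.respectTransparency false

namespace CL.E81.Perp2
open Module Function Finset CL.SL2Wt CL.Chev CL.AltE Cfsg.Lie
open CL.E83 (K3 G3)
open scoped MatrixGroups

theorem finrank_frS (N : Submodule K3 V3) : finrank K3 (frS N) = finrank K3 N := by
  let j : N →+ frS N := AddMonoidHom.mk' (fun v => ⟨Fr v, mem_frS.2 ⟨v, v.2, rfl⟩⟩)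
    fun u v => Subtype.ext (Fr_add u v)
  have hj : Bijective j := ⟨fun u v e => Subtype.ext (Fr_inj (congrArg Subtype.val e)), fun v =>
    let ⟨u, hu, e⟩ := mem_frS.1 v.2; ⟨⟨u, hu⟩, Subtype.ext e⟩⟩
  have hi : Bijective fun c : K3 => c ^ 3 := bijective_frobenius K3 3
  rw [finrank, finrank, rank_eq_of_equiv_equiv _ (AddEquiv.ofBijective j hj) hi fun c v => Subtype.ext (Fr_smul c v)]

theorem frS_eig (N : Submodule K3 V3) (g : G3) (μ : K3) :
    frS N ⊓ (rho g).eigenspace (μ ^ 3) = frS (N ⊓ (rho g).eigenspace μ) := by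
  ext v
  simp only [Submodule.mem_inf, mem_frS, End.mem_eigenspace_iff]
  constructor
  · rintro ⟨⟨u, hu, rfl⟩, e⟩
    exact ⟨u, ⟨hu, Fr_inj (by rw [Fr_rho, e, Fr_smul])⟩, rfl⟩
  · rintro ⟨u, ⟨hu, e⟩, rfl⟩
    exact ⟨⟨u, hu, rfl⟩, by rw [← Fr_rho, e, Fr_smul]⟩

theorem dim (N : Submodule K3 V3) (g : G3) {μ : K3ˣ} {j k : ℕ} (h : j * 3 ≡ k [MOD orderOf μ]) :
    finrank K3 ↥(frS N ⊓ (rho g).eigenspace ((μ : K3) ^ k)) =
      finrank K3 ↥(N ⊓ (rho g).eigenspace ((μ : K3) ^ j)) := by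
  rw [← Units.val_pow_eq_pow_val, ← pow_eq_pow_iff_modEq.2 h, pow_mul, Units.val_pow_eq_pow_val,
    Units.val_pow_eq_pow_val, frS_eig, finrank_frS]

theorem tw_lt {r : ℕ} (h : r < 81) : tw r < 81 := by rw [tw]; omega

theorem tw80 {r k : ℕ} (hr : r < 81) (hk : k < 80) : cw 80 (tw r) k = cw 80 r (27 * k % 80) := by
  have d : ∀ r < 81, ∀ k < 80, TyA.hist 80 (tw r) >>> (8 * k) % 256 =
      TyA.hist 80 r >>> (8 * (27 * k % 80)) % 256 := by decide +kernel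
  rw [TyA.cw80 _ (tw_lt hr) _ hk, TyA.cw80 _ hr _ (Nat.mod_lt _ (by norm_num)), d r hr k hk]

theorem tw82 {r k : ℕ} (hr : r < 81) (hk : k < 82) : cw 82 (tw r) k = cw 82 r (55 * k % 82) := by
  have d : ∀ r < 81, ∀ k < 82, TyA.hist 82 (tw r) >>> (8 * k) % 256 =
      TyA.hist 82 r >>> (8 * (55 * k % 82)) % 256 := by decide +kernel
  rw [TyA.cw82 _ (tw_lt hr) _ hk, TyA.cw82 _ hr _ (Nat.mod_lt _ (by norm_num)), d r hr k hk]

variable {F : Type*} [Field F] [Fintype F] (D : Dt F) (θ : SL(2, F) →* G3)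

omit [Fintype F] in
theorem frS_inv {N : Submodule K3 V3} (hN : Inv (rh θ) N) : Inv (rh θ) (frS N) := fun g v hv => by
  obtain ⟨u, hu, rfl⟩ := mem_frS.1 hv
  exact mem_frS.2 ⟨_, hN g u hu, Fr_rho _ u⟩

theorem RR_fr {N : Submodule K3 V3} (hN : Inv (rh θ) N) : RR D (rh θ) (frS N) = (RR D (rh θ) N).map tw := by
  obtain ⟨a1, a2, a3⟩ := RR_spec D (rh θ) hN
  obtain ⟨b1, b2, b3⟩ := RR_spec D (rh θ) (frS_inv θ hN)
  refine cw_unique b1 (fun r hr => ?_) (fun k hk => ?_) fun k hk => ?_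
  · obtain ⟨s, hs, rfl⟩ := Multiset.mem_map.1 hr
    exact tw_lt (a1 s hs)
  · rw [← b2, Multiset.map_map, Multiset.map_congr rfl fun r hr =>
      show ((cw 80 · k) ∘ tw) r = _ from tw80 (a1 r hr) hk, ← a2]
    exact dim N _ (by rw [D.hζ, Nat.ModEq]; omega)
  · rw [← b3, Multiset.map_map, Multiset.map_congr rfl fun r hr =>
      show ((cw 82 · k) ∘ tw) r = _ from tw82 (a1 r hr) hk, ← a3]
    exact dim N _ (by rw [D.hη, Nat.ModEq]; omega)

end CL.E81.Perp2
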