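/-
`E₈(3)`, `L₂(81)`: pressure, first half.
-/
import Cfsg.Agent.KSG.E81.Zb
import Cfsg.Agent.KSG.E81.RR

set_option autoImplicit false
set_option backward.isDefEq.respectTransparency false

namespace CL.E81.PrsA
open Module Function Finset CL.SL2Wt CL.Chev CL.AltE Cfsg.Lie
open CL.E82 (R8 val ww)
open CL.E83 (K3 G3)
open Matrix hiding zpow_add zpow_mul zpow_sub one_zpow
open scoped MatrixGroups

variable {F : Type*} [Field F] [Fintype F] (D : Dt F) {W : Type} [AddCommGroup W] [Module K3 W]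
  [FiniteDimensional K3 W] (ρ : SL(2, F) →* End K3 W)

theorem ZZ_le {U : Submodule K3 W} (hU : Inv ρ U) :
    finrank K3 (ZZ D ρ) ≤ finrank K3 (ZZ D (subR ρ U hU)) + finrank K3 (ZZ D (quoR ρ U hU)) := by
  let ι : (Fin 4 → U) →ₗ[K3] (Fin 4 → W) := U.subtype.compLeft (Fin 4)
  let q : (Fin 4 → W) →ₗ[K3] (Fin 4 → W ⧸ U) := U.mkQ.compLeft (Fin 4)
  have h0 := LinearMap.finrank_range_add_finrank_ker (q.domRestrict (ZZ D ρ))
  rw [LinearMap.range_domRestrict, LinearMap.ker_domRestrict,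
    ← Submodule.finrank_map_subtype_eq, Submodule.map_comap_subtype] at h0
  have h1 : (ZZ D ρ).map q ≤ ZZ D (quoR ρ U hU) := by
    rintro _ ⟨y, hy, rfl⟩
    obtain ⟨a, b, c⟩ := (mem_ZZ D ρ).1 hy
    have e : ∀ i, q y i = U.mkQ (y i) := fun i => rfl
    refine (mem_ZZ D _).2 ⟨fun i => ?_, fun i j => ?_, fun i => ?_⟩
    · rw [e, End.mem_eigenspace_iff, quoR_mk, End.mem_eigenspace_iff.1 (a i), map_smul]
    · rw [e, e, XX_quo, XX_quo, b]
    · rw [e, XX_quo, XX_quo, c, map_zero]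
  have h2 : ZZ D ρ ⊓ LinearMap.ker q ≤ (ZZ D (subR ρ U hU)).map ι := by
    rintro y ⟨hy, hq⟩
    obtain ⟨a, b, c⟩ := (mem_ZZ D ρ).1 hy
    have m : ∀ i, y i ∈ U := fun i =>
      (Submodule.Quotient.mk_eq_zero U).1 (congrFun (LinearMap.mem_ker.1 hq) i)
    refine ⟨fun i => ⟨y i, m i⟩, (mem_ZZ D _).2 ⟨fun i => ?_, fun i j => ?_, fun i => ?_⟩, rfl⟩
    · rw [End.mem_eigenspace_iff]
      exact Subtype.ext (End.mem_eigenspace_iff.1 (a i))
    · apply Subtype.ext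
      rw [XX_sub, XX_sub]
      exact b i j
    · apply Subtype.ext
      rw [XX_sub, XX_sub]
      exact c i
  have h3 := Submodule.finrank_mono h1
  have h4 := (Submodule.finrank_mono h2).trans (Submodule.finrank_map_le ι _)
  omega

omit [FiniteDimensional K3 W] in
theorem XX80 (v : W) : XX D ρ 80 v = -∑ a : F, ρ (up a) v := by
  simp [XX, LinearMap.sum_apply]

omit [FiniteDimensional K3 W] in
theorem bor {v : W} (hv : v ∈ Wt D ρ 0) (hU : ∀ a : F, ρ (up a) v = v) {g : SL(2, F)}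
    (hg : g 1 0 = 0) : ρ g v = v := by
  have ht : ρ D.t v = v := by simpa using End.mem_eigenspace_iff.1 hv
  have hk : ∀ k : ℕ, ρ (D.t ^ k) v = v := fun k => by
    induction k with
    | zero => simp
    | succ k ih => rw [pow_succ, map_mul, End.mul_apply, ht, ih]
  rcases D.bruhat g with ⟨a, k, rfl⟩ | ⟨a, b, k, rfl⟩
  · rw [map_mul, End.mul_apply, hk, hU]
  · exfalso
    rw [Dt.t, dg_pow] at hg
    simp [mul_ap, up, ww, dg] at hg

omit [FiniteDimensional K3 W] in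
theorem fix0 {v : W} (hv : v ∈ Wt D ρ 0) (hU : ∀ a : F, ρ (up a) v = v) (g : SL(2, F)) :
    ρ g (v + ∑ a : F, ρ (up a) (ρ ww v)) = v + ∑ a : F, ρ (up a) (ρ ww v) := by
  classical
  have key : ∀ (x y : SL(2, F)), (y⁻¹ * x) 1 0 = 0 → ρ x v = ρ y v := fun x y h => by
    conv_rhs => rw [← bor D ρ hv hU h, ← End.mul_apply, ← map_mul, mul_inv_cancel_left]
  have mm : ∀ (x : SL(2, F)) (a : F), ρ x (ρ (up a) (ρ ww v)) = ρ (x * up a * ww) v := fun x a => by
    rw [map_mul, map_mul]; rfl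
  have m1 : ∀ a : F, ρ (up a) (ρ ww v) = ρ (up a * ww) v := fun a => by rw [map_mul]; rfl
  set v0 := v + ∑ a : F, ρ (up a) (ρ ww v) with hv0
  have hu : ∀ b : F, ρ (up b) v0 = v0 := fun b => by
    rw [hv0, map_add, hU, map_sum]
    congr 1
    refine Fintype.sum_equiv (Equiv.addLeft b) _ _ fun a => ?_
    rw [Equiv.coe_addLeft, up_add, map_mul]; rfl
  have ht : ρ D.t v0 = v0 := by
    rw [hv0, map_add, bor D ρ hv hU (by simp [Dt.t, dg]), map_sum]
    congr 1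
    refine Fintype.sum_equiv (Equiv.mulLeft₀ ((D.c : F) * D.c) (by simp)) _ _ fun a => ?_
    rw [mm, m1]
    refine key _ _ ?_
    simp [mul_ap, up, ww, dg, Dt.t, Matrix.SpecialLinearGroup.SL2_inv_expl]
    field_simp
    ring
  have hk : ∀ k : ℕ, ρ (D.t ^ k) v0 = v0 := fun k => by
    induction k with
    | zero => simp
    | succ k ih => rw [pow_succ, map_mul, End.mul_apply, ht, ih]
  have hw : ρ ww v0 = v0 := by
    have e0 : ρ ww (ρ (up 0) (ρ ww v)) = v := by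
      rw [mm]
      exact bor D ρ hv hU (by simp [mul_ap, up, ww])
    have e1 : ρ (up 0) (ρ ww v) = ρ ww v := by
      rw [m1]
      exact key _ _ (by simp [mul_ap, up, ww, Matrix.SpecialLinearGroup.SL2_inv_expl])
    have e2 : ∑ a ∈ univ.erase (0 : F), ρ ww (ρ (up a) (ρ ww v)) =
        ∑ a ∈ univ.erase (0 : F), ρ (up a) (ρ ww v) := by
      refine Finset.sum_equiv ((Equiv.inv F).trans (Equiv.neg F)) (fun a => by simp) fun a ha => ?_
      have ha' : a ≠ 0 := (mem_erase.1 ha).1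
      rw [mm, m1]
      refine key _ _ ?_
      simp [mul_ap, up, ww, Matrix.SpecialLinearGroup.SL2_inv_expl, ha']
    rw [hv0, map_add, map_sum, ← Finset.add_sum_erase _ _ (mem_univ (0 : F)),
      ← Finset.add_sum_erase _ (fun a : F => ρ (up a) (ρ ww v)) (mem_univ (0 : F)), e0, e1, e2]
    abel
  rcases D.bruhat g with ⟨a, k, rfl⟩ | ⟨a, b, k, rfl⟩
  · rw [map_mul, End.mul_apply, hk, hu]
  · rw [map_mul, map_mul, map_mul, End.mul_apply, End.mul_apply, End.mul_apply, hk, hu, hw, hu]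

theorem fixB {R : Multiset ℕ} (h : Ty D ρ R) (h80 : 80 ∉ R) (nf : NoFix ρ) {v : W} (hv : v ∈ Wt D ρ 0)
    (hU : ∀ a : F, ρ (up a) v = v) : v = 0 := by
  have h0 := nf _ (fix0 D ρ hv hU)
  have h1 : v = XX D ρ 80 (ρ ww v) := by
    rw [XX80]; exact eq_neg_of_add_eq_zero_left h0
  refine ind D ρ (· ≠ 80) (fun W _ _ _ ρ => ∀ v : W, v = XX D ρ 80 (ρ ww v) → v = 0) ?_ ?_ ?_ h
    (fun r hr e => h80 (e ▸ hr)) v h1
  · intro W _ _ _ ρ _ v _
    exact Subsingleton.elim _ _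
  · intro W _ _ _ ρ r φ z hr hs v e
    rw [e, hs.top80 D ρ hr, LinearMap.zero_apply]
  · intro W _ _ _ ρ U hU a b v e
    have m : v ∈ U := (Submodule.Quotient.mk_eq_zero U).1
      (b (U.mkQ v) (by rw [quoR_mk, XX_quo, ← e]))
    exact congrArg Subtype.val (a ⟨v, m⟩ (Subtype.ext (by rw [XX_sub, subR_val]; exact e)))

end CL.E81.PrsA
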